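import Cfsg.Agent.Lib.PermComp.OutP.J3C.Data

/-!
# The centralizer of an involution of the third Janko group
-/

set_option autoImplicit false
set_option maxRecDepth 100000
set_option maxHeartbeats 0

namespace Cfsg.Agent.Lib.PermComp.OutP.J3C

open Cfsg Cfsg.Agent.Lib.PermComp.OutP
open Cfsg.Agent.Lib.PermComp.Core (force app Rep)
open Cfsg.Agent.Lib.PermComp.Kron (rangeAll rangeAll_spec)

local notation "FF" => Cfsg.Agent.Lib.PermComp.OutP.J3.F

noncomputable def rcF : Fin 3 → Nat := fun i => Core.nthN cR_T i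
noncomputable def mcF : Fin 3 → Nat := fun i => Core.nthN cM_T i
noncomputable def dcF : Fin 3 → Nat := fun i => Core.nthN cD_T i
noncomputable def rcH : Fin 2 → Nat := fun i => Core.nthN cH_T i

theorem cR_check : Core.checkAll cR_n cR_w cR_mask cR_L cR_maskL cR_idc (List.ofFn rcF) cR_prog cR_levels = true := by decide +kernel
theorem cR_order : Core.orderC cR_levels = 1920 := by decide +kernel
theorem cM_check : Core.checkAll cM_n cM_w cM_mask cM_L cM_maskL cM_idc (List.ofFn mcF) cM_prog cM_levels = true := by decide +kernel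
theorem cM_order : Core.orderC cM_levels = 60 := by decide +kernel
theorem cD_check : Core.checkAll cD_n cD_w cD_mask cD_L cD_maskL cD_idc (List.ofFn dcF) cD_prog cD_levels = true := by decide +kernel
theorem cD_order : Core.orderC cD_levels = 1920 := by decide +kernel
theorem cH_check : Core.checkAll cH_n cH_w cH_mask cH_L cH_maskL cH_idc (List.ofFn rcH) cH_prog cH_levels = true := by decide +kernel
theorem cH_order : Core.orderC cH_levels = 60 := by decide +kernel

theorem hwx : ∀ i, ∀ g ∈ wx i, g < 66 := by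
  have h : ∀ i, Core.allL (fun g => Nat.blt g 66) (wx i) = true := by decide +kernel
  exact fun i g hg => blt_lt ((Core.allL_eq_true _ _).1 (h i) g hg)

theorem hcomm_ck : ∀ i : Fin 3, rangeAll (fun q => Nat.beq (wApp FF (wx i) (FF 1 q)) (FF 1 (wApp FF (wx i) q))) 0 6156 = true := by
  decide +kernel

theorem hcomm : ∀ i, ∀ q < 6156, wApp FF (wx i) (FF J3.DD.t0 q) = FF J3.DD.t0 (wApp FF (wx i) q) := fun i q hq =>
  Nat.eq_of_beq_eq_true (rangeAll_spec (hcomm_ck i) q (Nat.zero_le _) (by omega))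

theorem hom_ck : rangeAll (fun j => Core.ifB (Nat.blt (OM j) 6156) (Nat.beq (OI (OM j)) j)) 0 80 = true := by decide +kernel

theorem hom : ∀ j < 80, OM j < 6156 ∧ OI (OM j) = j := by
  intro j hj
  have h := rangeAll_spec hom_ck j (Nat.zero_le _) (by omega)
  rw [Core.ifB_eq_true] at h
  exact ⟨blt_lt h.1, Nat.eq_of_beq_eq_true h.2⟩

theorem hrc_ck : ∀ i : Fin 3, rangeAll (fun j => Core.ifB (Nat.blt (app 7 127 (rcF i) j) 80) (Nat.beq (wApp FF (wx i) (OM j)) (OM (app 7 127 (rcF i) j)))) 0 80 = true := by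
  decide +kernel

theorem hrc : ∀ i, ∀ j < 80, app 7 127 (rcF i) j < 80 ∧ wApp FF (wx i) (OM j) = OM (app 7 127 (rcF i) j) := by
  intro i j hj
  have h := rangeAll_spec (hrc_ck i) j (Nat.zero_le _) (by omega)
  rw [Core.ifB_eq_true] at h
  exact ⟨blt_lt h.1, Nat.eq_of_beq_eq_true h.2⟩

theorem hd1_ck : ∀ i : Fin 3, rangeAll (fun j => Nat.beq (app 7 127 (dcF i) j) (app 7 127 (rcF i) j)) 0 80 = true := by
  decide +kernel

theorem hd1 : ∀ i, ∀ j < 80, app 7 127 (dcF i) j = app 7 127 (rcF i) j := fun i j hj =>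
  Nat.eq_of_beq_eq_true (rangeAll_spec (hd1_ck i) j (Nat.zero_le _) (by omega))

theorem hd2_ck : ∀ i : Fin 3, rangeAll (fun j => Nat.beq (app 7 127 (dcF i) (80 + j)) (80 + app 7 127 (mcF i) j)) 0 5 = true := by
  decide +kernel

theorem hd2 : ∀ i, ∀ j < 5, app 7 127 (dcF i) (80 + j) = 80 + app 7 127 (mcF i) j := fun i j hj =>
  Nat.eq_of_beq_eq_true (rangeAll_spec (hd2_ck i) j (Nat.zero_le _) (by omega))

/-- The image of the generators. -/
def b0 : Equiv.Perm (Fin 5) := ⟨![4, 2, 0, 1, 3], ![2, 3, 1, 4, 0], by decide, by decide⟩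
def b1 : Equiv.Perm (Fin 5) := ⟨![2, 1, 0, 4, 3], ![2, 1, 0, 4, 3], by decide, by decide⟩
def bb : Fin 3 → Equiv.Perm (Fin 5) := fun i => if i.val = 0 then b0 else if i.val = 1 then b1 else 1

theorem hrb (i : Fin 3) : Rep 7 127 (Equiv.refl (Fin 5)) (mcF i) (bb i) := by
  intro x
  fin_cases i <;> revert x <;> decide +kernel

theorem bb_mem (i : Fin 3) : bb i ∈ alternatingGroup (Fin 5) := by
  rw [Equiv.Perm.mem_alternatingGroup]
  fin_cases i <;> decide +kernel

theorem card_bb : Nat.card (famCl bb) = 60 := by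
  rw [card_famCl_of_check (e := Equiv.refl (Fin 5)) bb mcF hrb cM_check, cM_order]

theorem card_A5 : Nat.card (alternatingGroup (Fin 5)) = 60 := by
  rw [Nat.card_eq_fintype_card]
  have h := two_mul_card_alternatingGroup (α := Fin 5)
  have h5 : Fintype.card (Equiv.Perm (Fin 5)) = 120 := by
    rw [Fintype.card_perm]
    rfl
  omega

theorem bb_eq : famCl bb = alternatingGroup (Fin 5) := by
  apply Subgroup.eq_of_le_of_card_ge
  · apply (Subgroup.closure_le _).2
    rintro _ ⟨i, rfl⟩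
    exact bb_mem i
  · rw [card_bb, card_A5]

/-- The value of a word. -/
theorem wordEl_rp {s t : Nat} [NeZero t] {W mask : Nat} (a : Fin t → Equiv.Perm (Fin s)) (rc : Fin t → Nat)
    (hr : ∀ i, Rep W mask (Equiv.refl (Fin s)) (rc i) (a i)) (w : List Nat) :
    Rp (wApp (fun g => app W mask (rc (Fin.ofNat t g))) w) (wordEl a (w.map (Fin.ofNat t))) := by
  have h : wordEl a (w.map (Fin.ofNat t)) = wEl (fun g => a (Fin.ofNat t g)) w := by
    simp [wordEl, wEl, List.map_map, Function.comp_def]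
  rw [h]
  refine wApp_spec fun g _ p hp => ?_
  exact hr (Fin.ofNat t g) ⟨p, hp⟩

theorem hqv_ck : ∀ i : Fin 32, rangeAll (fun p => Nat.beq (wApp (fun g => app 7 127 (rcF (Fin.ofNat 3 g))) (wd i) p) (app 7 127 (qc i) p)) 0 80 = true := by
  decide +kernel

theorem hqm_ck : ∀ i j : Fin 32, rangeAll (fun p => Nat.beq (app 7 127 (qc (mt i j)) p) (app 7 127 (qc i) (app 7 127 (qc j) p))) 0 80 = true := by
  decide +kernel

theorem hq1_ck : ∀ i : Fin 32, rangeAll (fun p => Nat.beq (wApp (fun g => app 7 127 (mcF (Fin.ofNat 3 g))) (wd i) p) p) 0 5 = true := by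
  decide +kernel

theorem key_inj : ∀ i j : Fin 32, key i = key j → i = j := by decide +kernel

theorem t_id : mt 0 0 = 0 := by decide +kernel
theorem t1 : ∀ i j : Fin 32, mt i j = mt j i ∨ mt i j = mt 1 (mt j i) := by decide +kernel
theorem t2 : ∀ i : Fin 32, mt i i = 0 ∨ mt i i = 1 := by decide +kernel
theorem t3 : ∀ i : Fin 32, (∀ j, mt i j = mt j i) → i = 0 ∨ i = 1 := by decide +kernel
theorem t4 : ∀ j : Fin 32, mt 1 j = mt j 1 := by decide +kernel
theorem t6 : ∃ i j : Fin 32, mt i j ≠ mt j i := by decide +kernel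
theorem t7 : ∀ a : Fin 32, mt a a = 0 → a ≠ 0 → ∀ b, mt b b = 0 → b ≠ 0 → b ≠ a → mt a b = mt b a →
      ∀ c, mt c c = 0 → c ≠ 0 → c ≠ a → c ≠ b → c ≠ mt a b → mt a c = mt c a → mt b c = mt c b → False := by
  decide +kernel

/-- The structure of a group generated by a family on the eighty points. -/
theorem shape_K {C : Type*} [Group C] (a : Fin 3 → Equiv.Perm (Fin 80))
    (hra : ∀ i, Rep 7 127 (Equiv.refl (Fin 80)) (rcF i) (a i)) (φ : C ≃* famCl a) :
    ∃ (Q : Subgroup C) (_ : Q.Normal), IsExtraspecial 2 Q ∧ Nat.card Q = 32 ∧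
      (∀ E : Subgroup Q, IsElementaryAbelian 2 E → Nat.card E ≤ 2 ^ 2) ∧
      (∃ H : Subgroup C, Q.IsComplement' H) ∧ Nonempty (C ⧸ Q ≃* ↥(alternatingGroup (Fin 5))) := by
  have hR : Nat.card (famCl a) = 1920 := by
    rw [card_famCl_of_check (e := Equiv.refl (Fin 80)) a rcF hra cR_check, cR_order]
  have hP : Nat.card (pairCl a bb) = 1920 := by
    rw [card_pairCl_of_check (e1 := Equiv.refl (Fin 80)) (e2 := Equiv.refl (Fin 5)) a bb dcF rcF mcF hra hrb hd1 hd2 cD_check, cD_order]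
  obtain ⟨ψ, hs, hw⟩ := hom_of_pair a bb (by rw [hP, hR])
  let ρ := MulEquiv.subgroupCongr bb_eq
  let ψ' : famCl a →* ↥(alternatingGroup (Fin 5)) := ρ.toMonoidHom.comp ψ
  have hs' : Function.Surjective ψ' := ρ.surjective.comp hs
  have hv : ∀ g : famCl a, ((ψ' g : ↥(alternatingGroup (Fin 5))) : Equiv.Perm (Fin 5)) = (ψ g : Equiv.Perm (Fin 5)) := fun g => rfl
  let qK : Fin 32 → famCl a := fun i => ⟨wordEl a ((wd i).map (Fin.ofNat 3)), wordEl_mem a _⟩
  have hqv : ∀ (i : Fin 32) (p : Nat) (hp : p < 80), app 7 127 (qc i) p = ((qK i : Equiv.Perm (Fin 80)) ⟨p, hp⟩ : Nat) := by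
    intro i p hp
    have h1 := wordEl_rp a rcF hra (wd i) p hp
    rw [← Nat.eq_of_beq_eq_true (rangeAll_spec (hqv_ck i) p (Nat.zero_le _) (by omega))]
    exact h1
  have hq1 : ∀ i, ψ' (qK i) = 1 := by
    intro i
    apply Subtype.ext
    rw [hv]
    change (ψ ⟨wordEl a ((wd i).map (Fin.ofNat 3)), wordEl_mem a _⟩ : Equiv.Perm (Fin 5)) = 1
    rw [hw]
    ext p
    have h1 := wordEl_rp bb mcF hrb (wd i) p.1 p.2
    rw [← h1]
    exact Nat.eq_of_beq_eq_true (rangeAll_spec (hq1_ck i) p.1 (Nat.zero_le _) (by omega))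
  have hinj : Function.Injective qK := by
    intro i j hij
    apply key_inj
    have e : ∀ (p : Nat) (hp : p < 80), app 7 127 (qc i) p = app 7 127 (qc j) p := by
      intro p hp
      rw [hqv i p hp, hqv j p hp, hij]
    unfold key
    rw [e 0 (by norm_num), e 1 (by norm_num)]
  have hm : ∀ i j, qK (mt i j) = qK i * qK j := by
    intro i j
    apply Subtype.ext
    ext p
    have h1 := Nat.eq_of_beq_eq_true (rangeAll_spec (hqm_ck i j) p.1 (Nat.zero_le _) (by omega))
    have h2 := hqv (mt i j) p.1 p.2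
    have h3 := hqv j p.1 p.2
    have h4 := hqv i _ (((qK j : Equiv.Perm (Fin 80)) p).2)
    rw [h1, h3, h4] at h2
    exact h2.symm
  -- the complement
  let emb : Fin 2 → Fin 3 := Fin.castLE (by norm_num)
  let a2 : Fin 2 → Equiv.Perm (Fin 80) := fun i => a (emb i)
  have hle : famCl a2 ≤ famCl a := by
    apply (Subgroup.closure_le _).2
    rintro _ ⟨i, rfl⟩
    exact Subgroup.subset_closure ⟨emb i, rfl⟩
  have hrH : ∀ i, rcH i = rcF (emb i) := by decide +kernel
  have hra2 : ∀ i, Rep 7 127 (Equiv.refl (Fin 80)) (rcH i) (a2 i) := by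
    intro i
    rw [hrH]
    exact hra _
  have hc2 : Nat.card (famCl a2) = 60 := by
    rw [card_famCl_of_check (e := Equiv.refl (Fin 80)) a2 rcH hra2 cH_check, cH_order]
  let HK : Subgroup (famCl a) := (famCl a2).subgroupOf (famCl a)
  have hcH : Nat.card HK = Nat.card (alternatingGroup (Fin 5)) := by
    rw [card_A5, ← hc2]
    exact Nat.card_congr (Subgroup.subgroupOfEquivOfLe hle).toEquiv
  have hsH : ∀ y : ↥(alternatingGroup (Fin 5)), ∃ x ∈ HK, ψ' x = y := by
    have h0 : ∀ u ∈ famCl bb, ∃ x ∈ HK, (ψ x : Equiv.Perm (Fin 5)) = u := by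
      intro u hu
      induction hu using Subgroup.closure_induction with
      | mem u hu =>
        obtain ⟨i, rfl⟩ := hu
        by_cases h2 : i.val < 2
        · let x : famCl a := ⟨a i, Subgroup.subset_closure ⟨i, rfl⟩⟩
          have hx : x ∈ HK := by
            rw [Subgroup.mem_subgroupOf]
            exact Subgroup.subset_closure ⟨⟨i.val, h2⟩, rfl⟩
          refine ⟨x, hx, ?_⟩
          have h3 := hw [i]
          simp only [wordEl, List.map_cons, List.map_nil, List.prod_cons, List.prod_nil, mul_one] at h3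
          exact h3
        · refine ⟨1, Subgroup.one_mem _, ?_⟩
          have hi : i = 2 := by
            apply Fin.ext
            have := i.2
            show i.val = 2
            omega
          subst hi
          rw [map_one]
          rfl
      | one => exact ⟨1, Subgroup.one_mem _, by rw [map_one]; rfl⟩
      | mul u v _ _ hu hv =>
        obtain ⟨x, hx, rfl⟩ := hu
        obtain ⟨y, hy, rfl⟩ := hv
        exact ⟨x * y, Subgroup.mul_mem _ hx hy, by rw [map_mul]; rfl⟩
      | inv u _ hu =>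
        obtain ⟨x, hx, rfl⟩ := hu
        exact ⟨x⁻¹, Subgroup.inv_mem _ hx, by rw [map_inv]; rfl⟩
    intro y
    have hy : (y : Equiv.Perm (Fin 5)) ∈ famCl bb := by
      rw [bb_eq]
      exact y.2
    obtain ⟨x, hx, e⟩ := h0 _ hy
    exact ⟨x, hx, Subtype.ext (by rw [hv, e])⟩
  obtain ⟨i0, j0, h6⟩ := t6
  have hA : Nat.card (famCl a) = 32 * Nat.card (alternatingGroup (Fin 5)) := by
    rw [hR, card_A5]
  exact shape_of_hom φ ψ' hs' (a := 5) (by norm_num) qK hq1 hinj hA mt hm 0 1 t_id (by decide)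
    t1 t2 t3 t4 i0 j0 h6 t7 HK (inj_on_of_surj ψ' HK hsH hcH) hcH

/-- The main theorem. -/
theorem main_shape {H : Subgroup (Equiv.Perm (Fin 6156))} (hcard : Nat.card H = 50232960)
    (hX : ∀ g, 66 ≤ g → g < 68 → Has FF H g) :
    ∃ t, ∃ ht : t ∈ H, t * t = 1 ∧ t ≠ 1 ∧ (∀ z ∈ H, z * z = 1 → z ≠ 1 → ∃ x ∈ H, x * z * x⁻¹ = t) ∧
      ∃ a : Fin 3 → Equiv.Perm (Fin 80), (∀ i, Rep 7 127 (Equiv.refl (Fin 80)) (rcF i) (a i)) ∧
        Nonempty (Subgroup.centralizer {(⟨t, ht⟩ : H)} ≃* famCl a) := by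
  obtain ⟨⟨A, hA, rA⟩, ⟨b, hb, rb⟩⟩ := J3.has_gens hX
  obtain ⟨E, hO⟩ := J3.hC.out hcard hA hb rA rb
  have hE := hO.hE
  have hD := J3.hD
  have ht0 := hE _ hD.ht0
  have hLc : 1920 * J3.DD.L = Nat.card H := by
    rw [hcard]
    rfl
  obtain ⟨a, hra, ⟨φ⟩⟩ := cent_small (n := 6156) (m := 66) (F := FF) (E := E) (H := H) (D := J3.DD) (c := 1920) hE hD hLc (by decide)
    wx hwx hcomm (s := 80) (W := 7) (mask := 127) OM OI hom rcF hrc cR_check cR_order
  refine ⟨E J3.DD.t0, ht0.1, ?_, ?_, ?_, a, hra, ⟨φ⟩⟩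
  · exact mul_self_of_check ht0.2 J3.hC.hb2
  · intro h
    obtain ⟨q, hq, h1⟩ := J3.hC.hb1
    apply h1
    have h2 : FF 1 q = FF J3.DD.t0 q := rfl
    rw [h2, ht0.2 q hq, h]
    rfl
  · intro z hz hz2 hz1
    refine invol_conj_root hD J3.hS hE hO.hbase (a := 7) (mm := 392445) J3.hC.hP (hcard.trans (by norm_num)) J3.hC.hmm ?_ hz hz2 hz1
    intro cls l h
    unfold othB at h
    rw [Core.ifB_eq_true] at h
    exact absurd (blt_lt h.1) (Nat.not_lt_zero _)

end Cfsg.Agent.Lib.PermComp.OutP.J3C
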